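import Cfsg.Agent.H126.PwO.Mats
import Cfsg.Agent.H124.PwO.Minus
import Cfsg.Agent.H649.PwO.MinusSm
import Cfsg.Agent.H937.PwO.MinusFN

/-!
# S2465, `PΩ⁻`, orders prime to six (helper126, with helper124, helper649, helper937, helper170)
-/

set_option autoImplicit false
set_option linter.unusedSectionVars false

namespace Cfsg.Agent.H126.PwO

open Module QuadraticMap Matrix Cfsg.Agent.LieClassical.OrthCore Cfsg.Agent.LieClassical.OrthTrans
  Cfsg.Agent.LieClassical.OrthFinite Cfsg.Agent.LieClassical.OrthForms Cfsg.Agent.H140.OreO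
open Cfsg.Agent.H78.Pw (Pr All)

/-- Witt index three -/
theorem all_minus_three {F : Type*} [Field F] [Finite F]
    (hF : Nat.card F = 2 ∨ Nat.card F = 3 ∨ Nat.card F = 4 ∨ Nat.card F = 8 ∨ Nat.card F = 9) {a b : F}
    (hab : ∀ z₁ z₂ : F, z₁ ^ 2 + a * z₁ * z₂ + b * z₂ ^ 2 = 0 → z₁ = 0 ∧ z₂ = 0) :
    All 6 (Cfsg.POmega F (Cfsg.quadFormMinus 3 F a b)) := by
  refine H124.PwO.all_minus' le_rfl hab fun g hg _ hB => ?_
  have hfin : finrank F ((Fin 3 ⊕ Fin 3) ⊕ Fin 2 → F) = 2 * 3 + 2 := H124.PwO.finrank_minus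
  obtain ⟨w, w', hfr, hS, hdet, hA⟩ := hB
  exact prO_fac_one (by omega) (nondeg_minusForm _ F a b hab) hfr (Subgroup.commutator_le_self _ hg) hS
    (fac_three hF hdet (hA.imp id fun h => h.1))

theorem rest_minus (F : Type) [Field F] [Fintype F] (m : ℕ) (a b : F) (hm : 4 ≤ m) (hR : H124.PwO.Rest F m)
    (hab : ∀ z₁ z₂ : F, z₁ ^ 2 + a * z₁ * z₂ + b * z₂ ^ 2 = 0 → z₁ = 0 ∧ z₂ = 0) :
    All 6 (Cfsg.POmega F (Cfsg.quadFormMinus (m - 1) F a b)) := by
  rw [H124.PwO.Rest, ← Nat.card_eq_fintype_card] at hR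
  by_cases h4 : m = 4
  · subst h4
    refine all_minus_three ?_ hab
    omega
  · have hR' : (Nat.card F = 2 ∨ Nat.card F = 3) ∨ (Nat.card F = 4 ∨ Nat.card F = 9) := by omega
    rcases hR' with hF | hF
    · obtain ⟨k, rfl⟩ : ∃ k, m = k + 4 := ⟨m - 4, by omega⟩
      refine H649.PwO.all_minus_tt (k := k + 2) hF (by omega) hab fun u u' A h1 h2 => ?_
      exact fac_fv (k := k) (by omega) (by omega) (by omega) h1 h2
    · exact H937.PwO.all_minus_fn hF (by omega) hab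

/-- **PΩ⁻, orders prime to six** -/
theorem six_minus (F : Type) [Field F] [Fintype F] (r : ℕ) [hr : Fact r.Prime] [CharP F r] (m : ℕ) (a b : F)
    (h5 : r < 5) (hm : 4 ≤ m) (hab : ∀ z₁ z₂ : F, z₁ ^ 2 + a * z₁ * z₂ + b * z₂ ^ 2 = 0 → z₁ = 0 ∧ z₂ = 0) :
    All 6 (Cfsg.POmega F (Cfsg.quadFormMinus (m - 1) F a b)) :=
  H124.PwO.six_minus_of rest_minus F r m a b h5 hm hab

end Cfsg.Agent.H126.PwO
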